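import Cfsg.Agent.SuzukiMaxOrders83.Model
import Cfsg.Agent.CITThreePrime.PrimeGraph
import Cfsg.Prelude.Def_Sz

/-!
A finite group with the maximal subgroup orders of a Suzuki group is that Suzuki group, given the
identification of the simple groups of order prime to three.
-/

set_option autoImplicit false
set_option linter.style.haveILetI false

namespace CfsgLib.SuzukiMaxOrders83

open CfsgLib.Suzuki

universe u v

theorem three_not_dvd_szCard (m : ℕ) : ¬ 3 ∣ szCard m := by
  have h : ∀ j : ℕ, 2 ^ (2 * j + 1) % 3 = 2 := by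
    intro j
    induction j with
    | zero => norm_num
    | succ j ih => rw [show 2 * (j + 1) + 1 = 2 * j + 1 + 2 by ring, pow_add]; omega
  have h1 := h m
  have h2 : 1 ≤ 2 ^ (2 * m + 1) := Nat.one_le_two_pow
  unfold szCard
  intro hd
  rcases Nat.prime_three.dvd_mul.1 hd with hd | hd
  · rcases Nat.prime_three.dvd_mul.1 hd with hd | hd
    · have := Nat.prime_three.dvd_of_dvd_pow hd
      omega
    · rw [Nat.dvd_iff_mod_eq_zero, Nat.add_mod, Nat.pow_mod, h1] at hd
      norm_num at hd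
  · omega

section Generic

variable (hsz : ∀ (S : Type u) [Group S] [Finite S] [IsSimpleGroup S], (∃ a b : S, a * b ≠ b * a) →
      ¬ 3 ∣ Nat.card S → Cfsg.Lie.IsoSuzuki S)

include hsz in
/-- The order of a non-abelian simple group of order prime to three. -/
theorem card_simple (S : Type u) [Group S] [Finite S] [IsSimpleGroup S]
    (hab : ∃ a b : S, a * b ≠ b * a) (h3 : ¬ 3 ∣ Nat.card S) :
    ∃ k, 1 ≤ k ∧ Nat.card S = szCard k := by
  obtain ⟨K, _, _, k, hk, hK, ⟨e⟩⟩ := hsz S hab h3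
  haveI := charP_two hK
  exact ⟨k, hk, (Nat.card_congr (((e.trans (lieSzEquiv hk hK).symm).trans
    (MulEquiv.subgroupCongr (sz_eq (F := K) (m := k)))).toEquiv)).trans (CITThreePrime.card_model hk hK)⟩

include hsz in
/-- A group of order prime to three, and prime to five or not divisible by eight, is solvable. -/
theorem isSolvable_of_card : ∀ (n : ℕ) (X : Type u) [Group X] [Finite X], Nat.card X = n →
    ¬ 3 ∣ n → (¬ 5 ∣ n ∨ ¬ 8 ∣ n) → Group.IsSolvable X := by
  intro n
  induction n using Nat.strong_induction_on with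
  | h n ih =>
    intro X _ _ hn h3 h58
    rcases subsingleton_or_nontrivial X with hs | hnt
    · infer_instance
    by_cases hsimple : IsSimpleGroup X
    · by_cases hab : ∃ a b : X, a * b ≠ b * a
      · exfalso
        obtain ⟨k, hk, hc⟩ := card_simple hsz X hab (hn.symm ▸ h3)
        rw [← hn, hc] at h58
        exact h58.elim (fun h => h (five_dvd_szCard k)) (fun h => h (eight_dvd_szCard hk))
      simp only [not_exists, not_not] at hab
      exact Group.isSolvable_of_comm hab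
    obtain ⟨K, hKn, hKb, hKt⟩ : ∃ K : Subgroup X, K.Normal ∧ K ≠ ⊥ ∧ K ≠ ⊤ := by
      by_contra hno
      exact hsimple ⟨fun N hN => by
        by_contra hne
        push Not at hne
        exact hno ⟨N, hN, hne.1, hne.2⟩⟩
    have hdvd : ∀ a : ℕ, a ∣ n → ¬ 3 ∣ a ∧ (¬ 5 ∣ a ∨ ¬ 8 ∣ a) := fun a ha =>
      ⟨fun h => h3 (h.trans ha), h58.imp (fun h h' => h (h'.trans ha)) (fun h h' => h (h'.trans ha))⟩
    have h1 := Subgroup.card_eq_card_quotient_mul_card_subgroup K
    rw [hn] at h1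
    haveI : Nontrivial K := (Subgroup.nontrivial_iff_ne_bot K).mpr hKb
    have h2 : 1 < Nat.card K := Finite.one_lt_card
    have hK1 : Nat.card K < n := hn ▸ lt_of_le_of_ne (Subgroup.card_le_card_group K)
        fun he => hKt (Subgroup.card_eq_iff_eq_top K |>.mp he)
    haveI := ih _ hK1 K rfl (hdvd _ (Dvd.intro_left _ h1.symm)).1 (hdvd _ (Dvd.intro_left _ h1.symm)).2
    have hQ : Nat.card (X ⧸ K) < n := by
      rw [h1]; exact lt_mul_of_one_lt_right Nat.card_pos h2
    haveI := ih _ hQ (X ⧸ K) rfl (hdvd _ (Dvd.intro _ h1.symm)).1 (hdvd _ (Dvd.intro _ h1.symm)).2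
    exact Group.isSolvable_of_ker_le_range K.subtype (QuotientGroup.mk' K) (by simp)

end Generic

theorem card_dvd_of_max_orders {A : Type*} {B : Type*} [Group A] [Finite A] [Group B] [Finite B]
    (h : ∀ M : Subgroup A, IsCoatom M → ∃ M' : Subgroup B, IsCoatom M' ∧ Nat.card M = Nat.card M')
    (hA : ∀ p : ℕ, p.Prime → ¬ IsPGroup p A) : Nat.card A ∣ Nat.card B := by
  rw [Nat.dvd_iff_prime_pow_dvd_dvd]
  intro p k hp hd
  haveI := Fact.mk hp
  obtain ⟨P, hP⟩ := Sylow.exists_subgroup_card_pow_prime p hd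
  have hne : P ≠ ⊤ := fun he => hA p hp
    (IsPGroup.of_card (n := k) (by rw [← hP, he, Subgroup.card_top]))
  obtain ⟨M, hM, hPM⟩ := (eq_top_or_exists_le_coatom P).resolve_left hne
  obtain ⟨M', -, hM'⟩ := h M hM
  rw [← hP]
  exact (Subgroup.card_dvd_of_le hPM).trans (hM' ▸ Subgroup.card_subgroup_dvd_card M')

/-- Recognition of Suzuki groups by the orders of their maximal subgroups. -/
theorem recognition {G : Type u} [Group G] [Finite G]
    (hsz : ∀ (S : Type u) [Group S] [Finite S] [IsSimpleGroup S], (∃ a b : S, a * b ≠ b * a) →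
      ¬ 3 ∣ Nat.card S → Cfsg.Lie.IsoSuzuki S)
    {F : Type v} [Field F] [Fintype F] (m : ℕ) (hm : 1 ≤ m) (hF : Fintype.card F = 2 ^ (2 * m + 1))
    (h : {k : ℕ | ∃ M : Subgroup G, IsCoatom M ∧ k = Nat.card ↥M} =
      {k : ℕ | ∃ M : Subgroup ↥(Cfsg.Lie.Sz F (2 ^ (m + 1))), IsCoatom M ∧ k = Nat.card ↥M}) :
    Nonempty (G ≃* ↥(Cfsg.Lie.Sz F (2 ^ (m + 1)))) := by
  haveI := charP_two hF
  set T := grp (theta F m) with hTdef
  let e : T ≃* ↥(Cfsg.Lie.Sz F (2 ^ (m + 1))) :=
    (MulEquiv.subgroupCongr (sz_eq (F := F) (m := m)).symm).trans (lieSzEquiv hm hF)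
  set hT := titsEndo_theta hm hF
  have hTcard : Nat.card T = szCard m := CITThreePrime.card_model hm hF
  have hset : {k : ℕ | ∃ M : Subgroup G, IsCoatom M ∧ k = Nat.card ↥M} =
      {k : ℕ | ∃ M : Subgroup T, IsCoatom M ∧ k = Nat.card ↥M} := by
    rw [h]
    ext k
    constructor
    · rintro ⟨M, hM, rfl⟩
      exact ⟨_, (OrderIso.isCoatom_iff e.symm.mapSubgroup M).mpr hM,
        (Subgroup.card_map_of_injective e.symm.injective).symm⟩
    · rintro ⟨M, hM, rfl⟩
      exact ⟨_, (OrderIso.isCoatom_iff e.mapSubgroup M).mpr hM,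
        (Subgroup.card_map_of_injective e.injective).symm⟩
  have hGT : ∀ M : Subgroup G, IsCoatom M → ∃ M' : Subgroup T, IsCoatom M' ∧ Nat.card M = Nat.card M' :=
    fun M hM => (Set.ext_iff.mp hset _).mp ⟨M, hM, rfl⟩
  have hTG : ∀ M : Subgroup T, IsCoatom M → ∃ M' : Subgroup G, IsCoatom M' ∧ Nat.card M = Nat.card M' :=
    fun M hM => (Set.ext_iff.mp hset _).mpr ⟨M, hM, rfl⟩
  set q := 2 ^ (2 * m + 1) with hq
  have hcardF : Nat.card F = q := by rw [Nat.card_eq_fintype_card, hF]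
  have hq8 : 8 ∣ q := (by norm_num : (8:ℕ) = 2 ^ 3) ▸ pow_dvd_pow 2 (by omega)
  have hq8' : 8 ≤ q := Nat.le_of_dvd (by positivity) hq8
  obtain ⟨B, hB, hBc⟩ := hTG _ (isCoatom_stabInf hT)
  rw [card_stabInf hT, hcardF] at hBc
  obtain ⟨D0, hD0, hD0c⟩ := exists_torus_maximal hm hF
  obtain ⟨D, hD, hDc⟩ := hTG _ hD0
  rw [hDc] at hD0c
  -- neither group is a prime power group
  have hnp : ∀ p : ℕ, p.Prime → ∀ n : ℕ, ¬ q ^ 2 * (q - 1) ∣ p ^ n := by
    intro p hp n hd
    have h2 : 2 ∣ q ^ 2 * (q - 1) := (((by norm_num : 2 ∣ 8).trans hq8).trans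
      (dvd_pow_self q two_ne_zero)).mul_right _
    have hp2 := (Nat.prime_dvd_prime_iff_eq Nat.prime_two hp).1 (Nat.prime_two.dvd_of_dvd_pow (h2.trans hd))
    subst hp2
    obtain ⟨j, -, hj⟩ := (Nat.dvd_prime_pow Nat.prime_two).1 ((dvd_mul_left _ (q ^ 2)).trans hd)
    obtain ⟨u, hu⟩ := hq8
    rcases j with _ | j
    · omega
    · rw [pow_succ] at hj; omega
  have hcard : Nat.card G = szCard m := by
    rw [← hTcard]
    refine Nat.dvd_antisymm (card_dvd_of_max_orders hGT ?_) (card_dvd_of_max_orders hTG ?_)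
    · intro p hp hG
      haveI := Fact.mk hp
      obtain ⟨n, hn⟩ := IsPGroup.iff_card.mp hG
      exact hnp p hp n (hn ▸ hBc ▸ Subgroup.card_subgroup_dvd_card B)
    · intro p hp hG
      haveI := Fact.mk hp
      obtain ⟨n, hn⟩ := IsPGroup.iff_card.mp hG
      refine hnp p hp n (hn ▸ ?_)
      have := Subgroup.card_subgroup_dvd_card (stabInf (theta F m))
      rwa [card_stabInf hT, hcardF] at this
  have h3G : ¬ 3 ∣ Nat.card G := hcard ▸ three_not_dvd_szCard m
  have hBd := Subgroup.card_subgroup_dvd_card B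
  have hDd := Subgroup.card_subgroup_dvd_card D
  haveI : Group.IsSolvable B := isSolvable_of_card hsz _ B rfl (fun h' => h3G (h'.trans hBd))
    (Or.inl (hBc ▸ fun h' => (Nat.prime_five.dvd_mul.1 h').elim
      (fun h'' => by
        have h2 := (Nat.prime_dvd_prime_iff_eq Nat.prime_five Nat.prime_two).1
          (Nat.prime_five.dvd_of_dvd_pow (Nat.prime_five.dvd_of_dvd_pow h''))
        omega)
      (five_not_dvd m)))
  have hkodd : Odd (q + 2 ^ (m + 1) + 1) :=
    (odd_of_mem_orders hm (k := q + 2 ^ (m + 1) + 1) (Or.inr (Or.inl rfl))).1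
  haveI : Group.IsSolvable D := isSolvable_of_card hsz _ D rfl (fun h' => h3G (h'.trans hDd))
    (Or.inr fun h' => by
      have := h'.trans hD0c
      rw [show (8:ℕ) = 4 * 2 by norm_num] at this
      have := Nat.dvd_of_mul_dvd_mul_left (by norm_num) this
      obtain ⟨i, hi⟩ := hkodd
      omega)
  haveI : Nontrivial G := by
    refine Finite.one_lt_card_iff_nontrivial.mp ?_
    rw [hcard]
    exact Nat.lt_of_lt_of_le (by norm_num) (Nat.le_of_dvd (hcard ▸ Nat.card_pos) (eight_dvd_szCard hm))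
  obtain ⟨N, ⟨hN, hNtop⟩, hNmax⟩ := (Set.toFinite {N : Subgroup G | N.Normal ∧ N ≠ ⊤}).exists_maximal
    ⟨⊥, Subgroup.normal_bot, bot_ne_top⟩
  haveI := hN
  haveI : Nontrivial (G ⧸ N) := QuotientGroup.nontrivial_iff.mpr hNtop
  haveI hQ : IsSimpleGroup (G ⧸ N) := by
    refine ⟨fun K hK => ?_⟩
    by_cases hKt : K.comap (QuotientGroup.mk' N) = ⊤
    · right
      rw [← Subgroup.map_comap_eq_self_of_surjective (QuotientGroup.mk'_surjective N) K, hKt,
        Subgroup.map_top_of_surjective _ (QuotientGroup.mk'_surjective N)]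
    · left
      have hle : N ≤ K.comap (QuotientGroup.mk' N) := QuotientGroup.le_comap_mk' N K
      have := hNmax ⟨hK.comap _, hKt⟩ hle
      rw [← Subgroup.map_comap_eq_self_of_surjective (QuotientGroup.mk'_surjective N) K,
        Subgroup.map_eq_bot_iff, QuotientGroup.ker_mk']
      exact this
  have h1 : Nat.card G = Nat.card (G ⧸ N) * Nat.card N := Subgroup.card_eq_card_quotient_mul_card_subgroup N
  have hab : ∃ a b : G ⧸ N, a * b ≠ b * a := by
    by_contra hno
    simp only [not_exists, not_not] at hno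
    letI : CommGroup (G ⧸ N) := { (inferInstance : Group (G ⧸ N)) with mul_comm := hno }
    have hp : N.index.Prime := by
      rw [Subgroup.index_eq_card]; exact IsSimpleGroup.prime_card
    obtain ⟨M, hM, hNM⟩ := (eq_top_or_exists_le_coatom N).resolve_left hNtop
    have hMN : M.index = N.index := ((Nat.dvd_prime hp).1 (Subgroup.index_dvd_of_le hNM)).resolve_left
      fun h0 => hM.1 (Subgroup.index_eq_one.mp h0)
    obtain ⟨M', hM', hMc⟩ := hGT M hM
    refine index_not_prime hm hF M' hM'.1 ?_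
    have e1 := Subgroup.card_mul_index M'
    rw [hTcard, ← hcard, ← Subgroup.card_mul_index M, hMc] at e1
    rw [Nat.eq_of_mul_eq_mul_left Nat.card_pos e1, hMN]
    exact hp
  have hnsol : ¬ Group.IsSolvable (G ⧸ N) := fun _ => by
    obtain ⟨a, b, hab⟩ := hab
    exact hab (IsSimpleGroup.comm_iff_isSolvable.mpr ‹_› a b)
  have hle : ∀ M : Subgroup G, Group.IsSolvable M → IsCoatom M → N ≤ M := by
    intro M _ hM
    by_contra hle
    refine hnsol (Group.isSolvable_of_surjective (f := (QuotientGroup.mk' N).comp M.subtype) ?_)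
    intro x
    obtain ⟨g, rfl⟩ := QuotientGroup.mk'_surjective N x
    have hsup : M ⊔ N = ⊤ := hM.2 _ (lt_of_le_of_ne le_sup_left fun h => hle (h ▸ le_sup_right))
    obtain ⟨a, ha, b, hb, hab⟩ := Subgroup.mem_sup_of_normal_right.mp (hsup.symm ▸ Subgroup.mem_top g)
    exact ⟨⟨a, ha⟩, by
      rw [← hab]
      simp [(QuotientGroup.eq_one_iff b).mpr hb]⟩
  have hN4 : Nat.card N ∣ 4 := by
    have a1 := Subgroup.card_dvd_of_le (hle B inferInstance hB)
    have a2 := (Subgroup.card_dvd_of_le (hle D inferInstance hD)).trans hD0c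
    rw [← hBc] at a1
    obtain ⟨c1, c2, c3, c4, c5, c6⟩ := torus_orders_coprime m
    have hc : Nat.Coprime (q + 2 ^ (m + 1) + 1) (q ^ 2 * (q - 1)) :=
      Nat.Coprime.mul_right c2.symm c4.symm
    exact (hc.symm.coprime_dvd_left a1).dvd_of_dvd_mul_right a2
  obtain ⟨k, hk, hQc⟩ := card_simple hsz (G ⧸ N) hab
    fun h' => h3G (h'.trans (Subgroup.card_quotient_dvd_card N))
  -- parity of the exponent
  have hoddpart : ∀ j : ℕ, ¬ 2 ∣ ((2 ^ (2 * j + 1)) ^ 2 + 1) * (2 ^ (2 * j + 1) - 1) := by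
    intro j hd
    have h2 : 2 ∣ 2 ^ (2 * j + 1) := dvd_pow_self 2 (by omega)
    have h3 : 1 ≤ 2 ^ (2 * j + 1) := Nat.one_le_two_pow
    rcases Nat.prime_two.dvd_mul.1 hd with hd | hd
    · have : 2 ∣ (2 ^ (2 * j + 1)) ^ 2 := h2.trans (dvd_pow_self _ two_ne_zero)
      omega
    · omega
  have hsplit : ∀ j : ℕ, (szCard j).factorization 2 = (2 * j + 1) * 2 := by
    intro j
    have hne : ((2 ^ (2 * j + 1)) ^ 2 + 1) * (2 ^ (2 * j + 1) - 1) ≠ 0 := fun h0 =>
      hoddpart j (h0 ▸ dvd_zero 2)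
    rw [szCard, mul_assoc, Nat.factorization_mul (by positivity) hne, Finsupp.add_apply,
      Nat.factorization_eq_zero_of_not_dvd (hoddpart j), add_zero, ← pow_mul,
      Nat.prime_two.factorization_pow, Finsupp.single_eq_same]
  obtain ⟨i, hi, hNi⟩ := (Nat.dvd_prime_pow Nat.prime_two).1 (show Nat.card N ∣ 2 ^ 2 from hN4)
  rw [hcard, hQc] at h1
  rw [hNi] at h1
  have hk0 : szCard k ≠ 0 := hQc ▸ Nat.card_pos.ne'
  have h2 : (2 * m + 1) * 2 = (2 * k + 1) * 2 + i := by
    rw [← hsplit m, h1, Nat.factorization_mul hk0 (pow_ne_zero _ two_ne_zero), Finsupp.add_apply, hsplit,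
      Nat.prime_two.factorization_pow, Finsupp.single_eq_same]
  have hi0 : i = 0 := by omega
  have hkm : k = m := by omega
  rw [hi0, pow_zero] at hNi
  have hNb : N = ⊥ := Subgroup.card_eq_one.mp hNi
  subst hNb hkm
  let eG : G ≃* G ⧸ (⊥ : Subgroup G) := QuotientGroup.quotientBot.symm
  obtain ⟨K, _, _, k', hk', hK, ⟨e1⟩⟩ := hsz (G ⧸ (⊥ : Subgroup G)) hab
    fun h' => h3G (h'.trans (Subgroup.card_quotient_dvd_card _))
  haveI := charP_two hK
  have hc' : szCard k' = szCard k := by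
    rw [← hQc, Nat.card_congr (((e1.trans (lieSzEquiv hk' hK).symm).trans
      (MulEquiv.subgroupCongr (sz_eq (F := K) (m := k')))).toEquiv)]
    exact (CITThreePrime.card_model hk' hK).symm
  obtain rfl : k' = k := by
    rcases lt_trichotomy k' k with h' | h' | h'
    · exact absurd hc' (szCard_strictMono h').ne
    · exact h'
    · exact absurd hc' (szCard_strictMono h').ne'
  obtain ⟨f⟩ := CITThreePrime.sz_mulEquiv hm hF hK
  exact ⟨(eG.trans e1).trans f⟩

end CfsgLib.SuzukiMaxOrders83
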